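import Cfsg.Agent.H377.E8M.M11
import Cfsg.Agent.H114.E8L.Stmt
import Cfsg.Agent.H627.E8L.Fixed
import Cfsg.Agent.H837.E83.NM11Fin

/-!
# S5925, box M (helper377): the Prop `BM` of helper114
-/

set_option autoImplicit false
set_option maxRecDepth 100000

namespace Cfsg.Agent.H377.E8M

open Matrix Module Cfsg Cfsg.Lie Cfsg.Agent.H238.E8 Cfsg.Agent.H791.E8L Cfsg.Agent.H114.E8L
open Cfsg.Agent.ChevalleyStructure Cfsg.Agent.ChevalleyStructure.Elts Cfsg.Agent.H837.E83.NM11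
open Cfsg.Agent.H992.E8X

/-- `E₈(3)` acting by linear equivalences -/
noncomputable def rh : G3 →* (L3 ≃ₗ[ZMod 3] L3) :=
  (LinearMap.GeneralLinearGroup.generalLinearEquiv (ZMod 3) L3).toMonoidHom.comp
    (MonoidHom.toHomUnits (Cfsg.Agent.H395.E83.adjR : G3 →* Module.End (ZMod 3) L3))

theorem rh_apply (g : G3) (v : L3) : rh g v = ac g v := rfl

theorem toE_rh (g : G3) : toE (rh g) = Cfsg.Agent.H395.E83.adjR g := rfl

/-- the two halves have the same dimension -/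
theorem halves {x : G3} (hx : x ^ 11 = 1) :
    finrank (ZMod 3) (LinearMap.ker (XN (rh x))) = finrank (ZMod 3) (LinearMap.ker (XQ (rh x))) := by
  rw [← xN_toE, ← xR_toE, toE_rh]
  exact Cfsg.Agent.H395.E83.finrank_halves hx

theorem rt2_mem : ∀ i j : Fin 5, i ≠ j → rt2 i j ∈ Cfsg.Agent.H627.E8L.R2 := by decide +kernel

/-- the second factor -/
theorem ph2_mem (A : SpecialLinearGroup (Fin 5) (ZMod 3)) :
    ((ph2 (ZMod 3) A : G3) : GL chevE8.Idx (ZMod 3)) ∈ Cfsg.Agent.H627.E8L.E2 (ZMod 3) hE8 := by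
  refine tv_ind (fun A => ((ph2 (ZMod 3) A : G3) : GL chevE8.Idx (ZMod 3)) ∈ Cfsg.Agent.H627.E8L.E2 (ZMod 3) hE8) ?_ ?_ A
  · intro i j hij c
    rw [ph2_tv]
    exact Subgroup.subset_closure ⟨rt2 i j, rt2_mem i j hij, _, rfl⟩
  · intro A B hA hB
    rw [map_mul, Subgroup.coe_mul]
    exact mul_mem hA hB

/-- the fixed space of `⟨x₀, y₂⟩` -/
theorem fix24 : 24 ≤ finrank (ZMod 3) (fixB (rh x0) (rh y2)) := by
  have h := Cfsg.Agent.H627.E8L.h24 (hE := hE8) (x := x0) (y := y2) (ph2_mem _) (ph2_mem _)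
  have h1 : LinearMap.ker (Cfsg.Agent.H395.E83.adjR x0 - 1) ⊓ LinearMap.ker (Cfsg.Agent.H395.E83.adjR y2 - 1) =
      fixB (rh x0) (rh y2) := by
    ext v
    rw [Submodule.mem_inf, LinearMap.mem_ker, LinearMap.mem_ker, LinearMap.sub_apply, LinearMap.sub_apply,
      sub_eq_zero, sub_eq_zero]
    rfl
  rw [← h1]
  exact h

theorem three_zero : (3 : ZMod 3) = 0 := by decide

/-- the relations -/
theorem relM_of_words {x y t f : G3} (h0 : Rel x y t)
    (hw : ∀ w w' : List (Fin 4), eqP4 w w' = true → (w.map ![x, y, t, f]).prod = (w'.map ![x, y, t, f]).prod) :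
    RelM x y t f where
  rel := h0
  f2 := by
    simpa [← mul_assoc] using hw [3, 3] [2] (by decide +kernel)
  fy := by
    simpa [← mul_assoc, pow_succ] using hw [1, 3] [3, 1, 1, 1] (by decide +kernel)
  t3 := by
    simpa [← mul_assoc, pow_succ] using hw [2, 0, 0, 0, 3]
      [0, 0, 0, 3, 0, 0, 0, 0, 1, 1, 1, 2, 0, 0, 0, 0, 0, 0, 0] (by decide +kernel)
  t10 := by
    simpa [← mul_assoc, pow_succ] using hw [2, 0, 0, 0, 0, 0, 0, 0, 0, 0, 0, 3]
      [0, 0, 0, 0, 0, 0, 0, 0, 0, 0, 3, 0, 0, 0, 0, 0, 0, 0, 1, 2, 0, 0, 0, 0] (by decide +kernel)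
  f1 := by
    simpa [← mul_assoc, pow_succ] using hw [3, 0, 3]
      [0, 0, 0, 0, 0, 0, 3, 0, 0, 0, 0, 2, 0, 0, 0, 0, 0] (by decide +kernel)

/-- **box M** -/
theorem bM : BM eqP4 := by
  intro t f h0 hw hfix
  have h := (relM_of_words h0 hw).map rh
  exact h.no24 three_zero Cfsg.Agent.H395.E83.finrank_L (halves h0.x11) fix24 fun u h1 h2 h3 h4 => hfix u h1 h2 h3 h4

end Cfsg.Agent.H377.E8M
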