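import Cfsg.Agent.H791.E8L.Rel

/-!
# S5925, box M (helper377): `M₁₁`-relations and vectors fixed by the Borel subgroup of `L₂(11)`
-/

set_option autoImplicit false

namespace Cfsg.Agent.H377.E8M

open Cfsg.Agent.H791.E8L

/-- the relations of `M₁₁`: `⟨x, y, t⟩` is `L₂(11)`, `f` has order 4, normalises `⟨y⟩` and `f² = t` -/
structure RelM {M : Type*} [Group M] (x y t f : M) : Prop where
  rel : Rel x y t
  f2 : f * f = t
  fy : y * f = f * y ^ 3
  t3 : t * x ^ 3 * f = x ^ 3 * f * (x ^ 4 * y ^ 3 * t * x ^ 7)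
  t10 : t * x ^ 10 * f = x ^ 10 * f * (x ^ 7 * y * t * x ^ 4)
  f1 : f * x * f = x ^ 6 * f * (x ^ 4 * t * x ^ 5)

theorem RelM.map {M N : Type*} [Group M] [Group N] {x y t f : M} (h : RelM x y t f) (φ : M →* N) :
    RelM (φ x) (φ y) (φ t) (φ f) where
  rel := h.rel.map φ
  f2 := by rw [← map_mul, h.f2]
  fy := by rw [← map_mul, h.fy, map_mul, map_pow]
  t3 := by
    have h1 := congrArg φ h.t3
    simpa only [map_mul, map_pow] using h1
  t10 := by
    have h1 := congrArg φ h.t10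
    simpa only [map_mul, map_pow] using h1
  f1 := by
    have h1 := congrArg φ h.f1
    simpa only [map_mul, map_pow] using h1

section

variable {K V : Type*} [Field K] [AddCommGroup V] [Module K V] {x y t f : V ≃ₗ[K] V}

/-- the kernel of `v ↦ (1 + X_Q) t v` on the vectors fixed by `x` and `y` -/
theorem t_of_f_eq_zero (h : Rel x y t) (h2 : (2 : K) ≠ 0) {v : V} (hx : x v = v) (hy : y v = v)
    (hv : fv x t v = 0) : t v = v := by
  rw [fv_apply, XQ_apply] at hv
  have h0 : t ((x ^ 0) (t v)) = v := h.tt v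
  have hA0 : (x ^ 0) (t v) + (x ^ 1) (t v) + (x ^ 3) (t v) + (x ^ 4) (t v) + (x ^ 5) (t v) + (x ^ 9) (t v) = 0 := by
    rw [← hv]
    have h1 : (x ^ 0) (t v) = t v := rfl
    rw [h1]
    abel
  have hA2 : (x ^ 2) (t v) + (x ^ 3) (t v) + (x ^ 5) (t v) + (x ^ 6) (t v) + (x ^ 7) (t v) + (x ^ 0) (t v) = 0 := by
    have h1 := congrArg (fun u => (x ^ 2) u) hA0
    simp only [map_add, map_zero, pow_app] at h1
    norm_num only at h1
    rw [pow_mod' h.x11 11] at h1
    norm_num only at h1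
    exact h1
  have hB2 : (x ^ 5) (t v) + (x ^ 7) (t v) + (x ^ 2) (t v) + (x ^ 9) (t v) + (x ^ 3) (t v) + v = 0 := by
    have h1 := congrArg (fun u => t u) hA2
    simp only [map_add, map_zero, h0] at h1
    rw [h.t_pow hx hy (i := 2) (j := 5) (by norm_num), h.t_pow hx hy (i := 3) (j := 7) (by norm_num),
      h.t_pow hx hy (i := 5) (j := 2) (by norm_num), h.t_pow hx hy (i := 6) (j := 9) (by norm_num),
      h.t_pow hx hy (i := 7) (j := 3) (by norm_num)] at h1
    exact h1
  have hB7 : (x ^ 5) (t v) + (x ^ 6) (t v) + (x ^ 3) (t v) + (x ^ 2) v + (x ^ 1) (t v) + (x ^ 4) (t v) = 0 := by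
    have h1 := congrArg (fun u => (x ^ 7) u) hA0
    simp only [map_add, map_zero, pow_app] at h1
    norm_num only at h1
    rw [pow_mod' h.x11 11, pow_mod' h.x11 12, pow_mod' h.x11 16] at h1
    norm_num only at h1
    have h2 := congrArg (fun u => t u) h1
    simp only [map_add, map_zero, h0] at h2
    rw [h.t_pow hx hy (i := 7) (j := 3) (by norm_num), h.t_pow hx hy (i := 8) (j := 4) (by norm_num),
      h.t_pow hx hy (i := 10) (j := 1) (by norm_num), h.t_pow hx hy (i := 1) (j := 10) (by norm_num),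
      h.t_pow hx hy (i := 5) (j := 2) (by norm_num)] at h2
    have h3 := congrArg (fun u => (x ^ 2) u) h2
    simp only [map_add, map_zero, pow_app] at h3
    norm_num only at h3
    rw [pow_mod' h.x11 12] at h3
    norm_num only at h3
    rw [← h3]
  have hv2 : (x ^ 2) v = v := by
    rw [pow_two]
    change x (x v) = v
    rw [hx, hx]
  rw [hv2] at hB7
  have h5 : (2 : K) • ((x ^ 0) (t v) - v) = 0 := by
    linear_combination (norm := module) hA0 + hA2 - hB2 - hB7
  rcases smul_eq_zero.1 h5 with h6 | h6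
  · exact absurd h6 h2
  · exact sub_eq_zero.1 h6

/-- `t f v + f v = s v` -/
theorem t_f_add (h : Rel x y t) {v : V} (hx : x v = v) (hy : y v = v) :
    t (fv x t v) + fv x t v = sv x t v := by
  rw [fv_apply, map_add, h.tt, h.t_XQ hx hy, sv, XQ_apply, XN_apply]
  simp only [Finset.sum_range_succ, Finset.sum_range_zero, zero_add]
  have h1 : (x ^ 0) (t v) = t v := rfl
  rw [h1]
  abel

theorem pow_fix {g : V ≃ₗ[K] V} {v : V} (hv : g v = v) (n : ℕ) : (g ^ n) v = v := by
  induction n with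
  | zero => rfl
  | succ n ih =>
    rw [pow_succ]
    change (g ^ n) (g v) = v
    rw [hv, ih]

/-- facts on the vector `f w`, `w` fixed by `x`, `y`, `t` -/
theorem RelM.t_w0 (h : RelM x y t f) {w : V} (ht : t w = w) : t (f w) = f w := by
  have h1 : t * f = f * t := by rw [← h.f2]; group
  have h2 : t (f w) = f (t w) := congrArg (fun g : V ≃ₗ[K] V => g w) h1
  rw [h2, ht]

theorem RelM.y_w0 (h : RelM x y t f) {w : V} (hy : y w = w) : y (f w) = f w := by
  have h2 : y (f w) = f ((y ^ 3) w) := congrArg (fun g : V ≃ₗ[K] V => g w) h.fy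
  rw [h2, pow_fix hy]

theorem RelM.f_w0 (h : RelM x y t f) {w : V} (ht : t w = w) : f (f w) = w := by
  have h2 : f (f w) = t w := congrArg (fun g : V ≃ₗ[K] V => g w) h.f2
  rw [h2, ht]

theorem RelM.t3_w0 (h : RelM x y t f) {w : V} (hx : x w = w) (hy : y w = w) (ht : t w = w) :
    t ((x ^ 3) (f w)) = (x ^ 3) (f w) := by
  have h2 : t ((x ^ 3) (f w)) = (x ^ 3) (f ((x ^ 4) ((y ^ 3) (t ((x ^ 7) w))))) :=
    congrArg (fun g : V ≃ₗ[K] V => g w) h.t3
  rw [h2, pow_fix hx, ht, pow_fix hy, pow_fix hx]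

theorem RelM.t10_w0 (h : RelM x y t f) {w : V} (hx : x w = w) (hy : y w = w) (ht : t w = w) :
    t ((x ^ 10) (f w)) = (x ^ 10) (f w) := by
  have h2 : t ((x ^ 10) (f w)) = (x ^ 10) (f ((x ^ 7) (y (t ((x ^ 4) w))))) :=
    congrArg (fun g : V ≃ₗ[K] V => g w) h.t10
  rw [h2, pow_fix hx, ht, hy, pow_fix hx]

theorem RelM.f1_w0 (h : RelM x y t f) {w : V} (hx : x w = w) (ht : t w = w) :
    f (x (f w)) = (x ^ 6) (f w) := by
  have h2 : f (x (f w)) = (x ^ 6) (f ((x ^ 4) (t ((x ^ 5) w)))) :=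
    congrArg (fun g : V ≃ₗ[K] V => g w) h.f1
  rw [h2, pow_fix hx, ht, pow_fix hx]

theorem RelM.step' (h : RelM x y t f) {w : V} (hy : y w = w) (ht : t w = w) {i j : ℕ}
    (hij : t ((x ^ i) (f w)) = (x ^ j) (f w)) :
    t ((x ^ (3 * i % 11)) (f w)) = (x ^ (4 * j % 11)) (f w) := by
  have h1 := h.rel.step (v := f w) (h.y_w0 hy) (i := i) (j := j)
  rw [h.t_w0 ht] at h1
  exact h1 hij

/-- the action of `t` on the eleven vectors `x ^ i f w` -/
theorem RelM.tQ (h : RelM x y t f) {w : V} (hx : x w = w) (hy : y w = w) (ht : t w = w) :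
    t ((x ^ 3) (f w)) = (x ^ 3) (f w) ∧ t ((x ^ 9) (f w)) = (x ^ 1) (f w) ∧ t ((x ^ 5) (f w)) = (x ^ 4) (f w) ∧
      t ((x ^ 4) (f w)) = (x ^ 5) (f w) ∧ t ((x ^ 1) (f w)) = (x ^ 9) (f w) := by
  have a1 := h.t3_w0 hx hy ht
  have a2 := h.step' hy ht a1
  have a3 := h.step' hy ht a2
  have a4 := h.step' hy ht a3
  have a5 := h.step' hy ht a4
  norm_num only at a2 a3 a4 a5
  exact ⟨a1, a2, a3, a4, a5⟩

theorem RelM.tN (h : RelM x y t f) {w : V} (hx : x w = w) (hy : y w = w) (ht : t w = w) :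
    t ((x ^ 10) (f w)) = (x ^ 10) (f w) ∧ t ((x ^ 8) (f w)) = (x ^ 7) (f w) ∧ t ((x ^ 2) (f w)) = (x ^ 6) (f w) ∧
      t ((x ^ 6) (f w)) = (x ^ 2) (f w) ∧ t ((x ^ 7) (f w)) = (x ^ 8) (f w) := by
  have a1 := h.t10_w0 hx hy ht
  have a2 := h.step' hy ht a1
  have a3 := h.step' hy ht a2
  have a4 := h.step' hy ht a3
  have a5 := h.step' hy ht a4
  norm_num only at a2 a3 a4 a5
  exact ⟨a1, a2, a3, a4, a5⟩

/-- the vector `a' = (1 + X_Q) f w` is fixed by `t` -/
theorem RelM.t_psi (h : RelM x y t f) {w : V} (hx : x w = w) (hy : y w = w) (ht : t w = w) :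
    t (fv x t (f w)) = fv x t (f w) := by
  obtain ⟨a1, a2, a3, a4, a5⟩ := h.tQ hx hy ht
  rw [fv_apply, XQ_apply, h.t_w0 ht]
  simp only [map_add]
  rw [a1, a2, a3, a4, a5, h.t_w0 ht]
  abel

/-- if `a' = 0` then `w` is fixed by `f` -/
theorem RelM.psi_ker (h : RelM x y t f) {w : V} (hx : x w = w) (hy : y w = w) (ht : t w = w)
    (h0 : fv x t (f w) = 0) : f w = w := by
  obtain ⟨a1, a2, a3, a4, a5⟩ := h.tQ hx hy ht
  obtain ⟨b1, b2, b3, b4, b5⟩ := h.tN hx hy ht
  have hz : (x ^ 0) (f w) = f w := rfl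
  have c0 : (x ^ 0) (f w) + (x ^ 1) (f w) + (x ^ 3) (f w) + (x ^ 4) (f w) + (x ^ 5) (f w) + (x ^ 9) (f w) = 0 := by
    rw [fv_apply, XQ_apply, h.t_w0 ht] at h0
    rw [hz]
    linear_combination (norm := abel) h0
  have c2 := congrArg (fun u => (x ^ 2) u) c0
  simp only [map_add, map_zero, pow_app] at c2
  norm_num only at c2
  rw [pow_mod' h.rel.x11 11] at c2
  norm_num only at c2
  have c3 := congrArg (fun u => t u) c2
  simp only [map_add, map_zero] at c3
  rw [hz, h.t_w0 ht, b3, a1, a3, b4, b5] at c3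
  have c4 := congrArg (fun u => x u) c3
  simp only [map_add, map_zero, app_pow] at c4
  norm_num only at c4
  have c5 : (x ^ 7) (f w) = f w := by
    have hx1 : x (f w) = (x ^ 1) (f w) := by rw [pow_one]
    rw [hx1] at c4
    rw [hz] at c0
    linear_combination (norm := abel) c4 - c0
  have c6 : x (f w) = f w := by
    have h1 : ∀ n : ℕ, (x ^ (7 * n)) (f w) = f w := by
      intro n
      rw [pow_mul]
      exact pow_fix c5 n
    have h2 := h1 8
    rw [pow_mod' h.rel.x11] at h2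
    norm_num only at h2
    rwa [pow_one] at h2
  have c7 := h.f1_w0 hx ht
  rw [c6, pow_fix c6, h.f_w0 ht] at c7
  exact c7.symm

/-- the vectors fixed by `x`, `y`, `t` -/
def fixW (x y t : V ≃ₗ[K] V) : Submodule K V where
  carrier := {v | x v = v ∧ y v = v ∧ t v = v}
  zero_mem' := ⟨map_zero _, map_zero _, map_zero _⟩
  add_mem' := fun {a b} ha hb =>
    ⟨by rw [map_add, ha.1, hb.1], by rw [map_add, ha.2.1, hb.2.1], by rw [map_add, ha.2.2, hb.2.2]⟩
  smul_mem' := fun c a ha => ⟨by rw [map_smul, ha.1], by rw [map_smul, ha.2.1], by rw [map_smul, ha.2.2]⟩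

open Module in
/-- **box M**: the count for `M₁₁` -/
theorem RelM.finrank_le [FiniteDimensional K V] (h : RelM x y t f) (h3 : (3 : K) = 0)
    (hfix : ∀ u, x u = u → y u = u → t u = u → f u = u → u = 0) :
    finrank K (fixB x y) ≤ finrank K (partQ x y) := by
  have h2 : (2 : K) ≠ 0 := by
    intro h2
    have h4 : (1 : K) = 0 := by linear_combination h3 - h2
    exact one_ne_zero h4
  have h3' : ∀ u : V, (3 : K) • u = 0 := fun u => by rw [h3, zero_smul]
  let A : fixB x y →ₗ[K] partQ x y := (fv x t).restrict fun v hv => ⟨h.rel.f_y hv.2, f_part h3 h.rel.x11 v⟩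
  let B : fixW x y t →ₗ[K] partQ x y := ((fv x t) ∘ₗ (f : V →ₗ[K] V)).restrict fun v hv =>
    ⟨h.rel.f_y (h.y_w0 hv.2.1), f_part h3 h.rel.x11 _⟩
  have hA : ∀ v : fixB x y, ((A v : partQ x y) : V) = fv x t v := fun v => rfl
  have hB : ∀ v : fixW x y t, ((B v : partQ x y) : V) = fv x t (f v) := fun v => rfl
  have hBinj : Function.Injective B := by
    rw [← LinearMap.ker_eq_bot, LinearMap.ker_eq_bot']
    intro w hw
    have h4 : fv x t (f (w : V)) = 0 := by rw [← hB, hw]; rfl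
    obtain ⟨k1, k2, k3⟩ := w.2
    exact Subtype.ext (hfix _ k1 k2 k3 (h.psi_ker k1 k2 k3 h4))
  have hker : finrank K (LinearMap.ker A) ≤ finrank K (fixW x y t) := by
    refine LinearMap.finrank_le_finrank_of_injective
      (f := ((fixB x y).subtype ∘ₗ (LinearMap.ker A).subtype).codRestrict (fixW x y t) ?_) ?_
    · rintro ⟨v, hv⟩
      have h4 : fv x t (v : V) = 0 := by
        rw [← hA, LinearMap.mem_ker.1 hv]; rfl
      exact ⟨v.2.1, v.2.2, t_of_f_eq_zero h.rel h2 v.2.1 v.2.2 h4⟩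
    · intro v w hvw
      have h4 := congrArg Subtype.val hvw
      exact Subtype.ext (Subtype.ext h4)
  have hrank : finrank K (LinearMap.range B) = finrank K (fixW x y t) := LinearMap.finrank_range_of_inj hBinj
  have hdisj : LinearMap.range A ⊓ LinearMap.range B = ⊥ := by
    rw [eq_bot_iff]
    rintro u ⟨⟨v, hv⟩, ⟨w, hw⟩⟩
    have e1 : (u : V) = fv x t (v : V) := by rw [← hv]; rfl
    have e2 : (u : V) = fv x t (f (w : V)) := by rw [← hw]; rfl
    have e3 : t (u : V) = u := by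
      rw [e2]
      exact h.t_psi w.2.1 w.2.2.1 w.2.2.2
    have e4 := t_f_add h.rel v.2.1 v.2.2
    rw [← e1, e3] at e4
    obtain ⟨s1, -, -⟩ := h.rel.s_fix v.2.1 v.2.2
    -- `X_Q` kills `u` and multiplies `s v = 2 u` by five
    have e5 : XQ x (u : V) = 0 := u.2.2
    have e6 : XQ x (sv x t (v : V)) = (5 : K) • sv x t (v : V) := by
      rw [XQ_apply, pow_fix s1, pow_fix s1, pow_fix s1, pow_fix s1, pow_fix s1]
      module
    rw [← e4, map_add, e5, add_zero] at e6
    have e7 : (u : V) = 0 := by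
      linear_combination (norm := module) (-1 : K) • e6 - (3 : K) • h3' (u : V)
    exact (Submodule.mem_bot K).2 (Subtype.ext e7)
  have h5 := LinearMap.finrank_range_add_finrank_ker A
  have h6 := Submodule.finrank_sup_add_finrank_inf_eq (LinearMap.range A) (LinearMap.range B)
  rw [hdisj, finrank_bot, add_zero] at h6
  have h7 := Submodule.finrank_le (LinearMap.range A ⊔ LinearMap.range B)
  omega

end

end Cfsg.Agent.H377.E8M
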