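import Cfsg.Agent.H377.E8M.Lin
import Cfsg.Agent.H791.E8L.Bridge
import Cfsg.Agent.H837.E83.NM11

/-!
# S5925, box M (helper377): the case `M₁₁`

`H ≅ M₁₁` (letters `v 0 = x`, `v 1 = y`, `v 2 = t`, `v 3 = f` of helper837) acting on a space of dimension 248 in
characteristic three without common fixed vectors: `dim V^⟨x,y⟩ ≥ 24` is impossible.
-/

set_option autoImplicit false

namespace Cfsg.Agent.H377.E8M

open Module Cfsg.Agent.H791.E8L Cfsg.Agent.H837.E83.NM11

theorem rel_of_gen {H : Type*} [Group H] {v : ℕ → H} (h : M11Gen v) : Rel (v 0) (v 1) (v 2) :=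
  ⟨h.x_pow, h.y_pow, h.t_sq, h.xt, h.y_x, h.t_y⟩

/-- the relations of `RelM` -/
theorem relM_of_gen {H : Type*} [Group H] {v : ℕ → H} (h : M11Gen v) : RelM (v 0) (v 1) (v 2) (v 3) where
  rel := rel_of_gen h
  f2 := h.f_sq
  fy := by
    simpa [← mul_assoc, pow_succ] using h.eq [1, 3] [3, 1, 1, 1] (by decide +kernel)
  t3 := by
    simpa [← mul_assoc, pow_succ] using h.eq [2, 0, 0, 0, 3]
      [0, 0, 0, 3, 0, 0, 0, 0, 1, 1, 1, 2, 0, 0, 0, 0, 0, 0, 0] (by decide +kernel)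
  t10 := by
    simpa [← mul_assoc, pow_succ] using h.eq [2, 0, 0, 0, 0, 0, 0, 0, 0, 0, 0, 3]
      [0, 0, 0, 0, 0, 0, 0, 0, 0, 0, 3, 0, 0, 0, 0, 0, 0, 0, 1, 2, 0, 0, 0, 0] (by decide +kernel)
  f1 := by
    simpa [← mul_assoc, pow_succ] using h.eq [3, 0, 3]
      [0, 0, 0, 0, 0, 0, 3, 0, 0, 0, 0, 2, 0, 0, 0, 0, 0] (by decide +kernel)

variable {K V : Type*} [Field K] [AddCommGroup V] [Module K V]

/-- a vector fixed by `x`, `y`, `t`, `f` is fixed by the group -/
theorem fix_all {H : Type*} [Group H] {v : ℕ → H} (hv : M11Gen v) (φ : H →* (V ≃ₗ[K] V)) {u : V}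
    (h0 : φ (v 0) u = u) (h3 : φ (v 3) u = u) (g : H) : φ g u = u := by
  have hg : g ∈ Subgroup.closure {v 0, v 3} := hv.gen2 ▸ Subgroup.mem_top g
  induction hg using Subgroup.closure_induction with
  | mem g hg =>
    rcases hg with rfl | rfl
    · exact h0
    · exact h3
  | one => rw [map_one]; rfl
  | mul a b _ _ ha hb =>
    rw [map_mul]
    change φ a (φ b u) = u
    rw [hb, ha]
  | inv a _ ha =>
    rw [map_inv]
    have h1 : (φ a)⁻¹ (φ a u) = u := (φ a).symm_apply_apply u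
    rwa [ha] at h1

/-- **box M, first form**: `RelM` without common fixed vectors -/
theorem RelM.no24 [FiniteDimensional K V] {x y t f : V ≃ₗ[K] V} (h : RelM x y t f) (h3 : (3 : K) = 0)
    (hM : finrank K V = 248) (hk : finrank K (LinearMap.ker (XN x)) = finrank K (LinearMap.ker (XQ x)))
    (h24 : 24 ≤ finrank K (fixB x y)) (hfix : ∀ u, x u = u → y u = u → t u = u → f u = u → u = 0) : False := by
  have h1 := h.finrank_le h3 hfix
  have h2 := h.rel.partQ_le h3 hM hk (h24.trans (Submodule.finrank_mono (fixB_le x y)))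
  omega

/-- **box M**: a representation of `H ≅ M₁₁` -/
theorem no24 {H : Type*} [Group H] {v : ℕ → H} (hv : M11Gen v) [FiniteDimensional K V] (φ : H →* (V ≃ₗ[K] V))
    (h3 : (3 : K) = 0) (hM : finrank K V = 248)
    (hk : finrank K (LinearMap.ker (XN (φ (v 0)))) = finrank K (LinearMap.ker (XQ (φ (v 0)))))
    (h24 : 24 ≤ finrank K (fixB (φ (v 0)) (φ (v 1)))) (hfix : ∀ u : V, (∀ g : H, φ g u = u) → u = 0) : False :=
  ((relM_of_gen hv).map φ).no24 h3 hM hk h24 fun u h0 _ _ h4 => hfix u fun g => fix_all hv φ h0 h4 g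

end Cfsg.Agent.H377.E8M
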